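import Cfsg.Agent.H497.Stein.Eng
import Cfsg.Agent.H839.Rad.Base
import Cfsg.Agent.H979.Ccp.Cube2

/-!
# The row of the Monster from the facts (helper979)
-/

set_option autoImplicit false
set_option maxRecDepth 100000

namespace Cfsg.Agent.H979.Ccp.MonRow

open Subgroup Cfsg Cfsg.Agent.H520 Cfsg.Agent.H497.Stein

universe u

/-- the order of the Monster -/
abbrev N : ℕ := 808017424794512875886459904961710757005754368000000000

theorem N_eq : N = 2 ^ 46 * 3 ^ 20 * 5 ^ 9 * 7 ^ 6 * 11 ^ 2 * 13 ^ 3 * 17 * 19 * 23 * 29 * 31 * 41 * 47 * 59 * 71 := by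
  norm_num

theorem primes {p : ℕ} (hp : p.Prime) (h : p ^ 2 ∣ N) : p = 2 ∨ p = 3 ∨ p = 5 ∨ p = 7 ∨ p = 11 ∨ p = 13 := by
  have h1 : p ∣ N := (dvd_pow_self p (by norm_num)).trans h
  have key : ∀ {a b : ℕ}, p ∣ a * b → p ∣ a ∨ p ∣ b := fun hd => (Nat.Prime.dvd_mul hp).1 hd
  have kp : ∀ {a : ℕ}, a.Prime → p ∣ a → p = a := fun ha hd => (Nat.prime_dvd_prime_iff_eq hp ha).1 hd
  rw [N_eq] at h1
  rcases key h1 with h1 | h1
  swap
  · rw [kp (by norm_num) h1] at h
    norm_num at h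
  rcases key h1 with h1 | h1
  swap
  · rw [kp (by norm_num) h1] at h
    norm_num at h
  rcases key h1 with h1 | h1
  swap
  · rw [kp (by norm_num) h1] at h
    norm_num at h
  rcases key h1 with h1 | h1
  swap
  · rw [kp (by norm_num) h1] at h
    norm_num at h
  rcases key h1 with h1 | h1
  swap
  · rw [kp (by norm_num) h1] at h
    norm_num at h
  rcases key h1 with h1 | h1
  swap
  · rw [kp (by norm_num) h1] at h
    norm_num at h
  rcases key h1 with h1 | h1
  swap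
  · rw [kp (by norm_num) h1] at h
    norm_num at h
  rcases key h1 with h1 | h1
  swap
  · rw [kp (by norm_num) h1] at h
    norm_num at h
  rcases key h1 with h1 | h1
  swap
  · rw [kp (by norm_num) h1] at h
    norm_num at h
  rcases key h1 with h1 | h1
  swap
  · have := kp (by norm_num) (hp.dvd_of_dvd_pow h1)
    omega
  rcases key h1 with h1 | h1
  swap
  · have := kp (by norm_num) (hp.dvd_of_dvd_pow h1)
    omega
  rcases key h1 with h1 | h1
  swap
  · have := kp (by norm_num) (hp.dvd_of_dvd_pow h1)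
    omega
  rcases key h1 with h1 | h1
  swap
  · have := kp (by norm_num) (hp.dvd_of_dvd_pow h1)
    omega
  rcases key h1 with h1 | h1
  swap
  · have := kp (by norm_num) (hp.dvd_of_dvd_pow h1)
    omega
  · have := kp (by norm_num) (hp.dvd_of_dvd_pow h1)
    omega

theorem ord {q n : ℕ} (s : ℕ) (hn : 0 < n) (h : (s : ZMod q) ^ n = 1 ∧ ∀ m, m < n → 0 < m → (s : ZMod q) ^ m ≠ 1) :
    orderOf (s : ZMod q) = n := (orderOf_eq_iff hn).2 h

theorem ord35 : orderOf ((3 : ℕ) : ZMod 5) = 4 := ord 3 (by norm_num) (by decide)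
theorem ord75 : orderOf ((7 : ℕ) : ZMod 5) = 4 := ord 7 (by norm_num) (by decide)
theorem ord115 : orderOf ((11 : ℕ) : ZMod 5) = 1 := ord 11 (by norm_num) (by decide)
theorem ord135 : orderOf ((13 : ℕ) : ZMod 5) = 4 := ord 13 (by norm_num) (by decide)
theorem ord37 : orderOf ((3 : ℕ) : ZMod 7) = 6 := ord 3 (by norm_num) (by decide)
theorem ord117 : orderOf ((11 : ℕ) : ZMod 7) = 3 := ord 11 (by norm_num) (by decide)
theorem ord137 : orderOf ((13 : ℕ) : ZMod 7) = 2 := ord 13 (by norm_num) (by decide)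
theorem ord311 : orderOf ((3 : ℕ) : ZMod 11) = 5 := ord 3 (by norm_num) (by decide)
theorem ord1311 : orderOf ((13 : ℕ) : ZMod 11) = 10 := ord 13 (by norm_num) (by decide)
theorem ord73 : orderOf ((7 : ℕ) : ZMod 3) = 1 := ord 7 (by norm_num) (by decide)

theorem num5 {o : ℕ} (ho : ∀ p : ℕ, p.Prime → p ∣ o → p = 3 ∨ p = 5 ∨ p = 7 ∨ p = 11 ∨ p = 13) : NumOK2 5 N o := by
  intro s p hs hp hso hpo hs5 hp5 hps
  rcases ho s hs hso with rfl | rfl | rfl | rfl | rfl <;> rcases ho p hp hpo with rfl | rfl | rfl | rfl | rfl <;>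
    first
      | exact absurd rfl hs5
      | exact absurd rfl hp5
      | exact absurd rfl hps
      | (simp only [ord35, ord75, ord115, ord135]; norm_num)

theorem num7 {o : ℕ} (ho : ∀ p : ℕ, p.Prime → p ∣ o → p = 3 ∨ p = 7 ∨ p = 11 ∨ p = 13) : NumOK2 7 N o := by
  intro s p hs hp hso hpo hs5 hp5 hps
  rcases ho s hs hso with rfl | rfl | rfl | rfl <;> rcases ho p hp hpo with rfl | rfl | rfl | rfl <;>
    first
      | exact absurd rfl hs5
      | exact absurd rfl hp5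
      | exact absurd rfl hps
      | (simp only [ord37, ord117, ord137, ord73]; norm_num)

theorem num11 {o : ℕ} (ho : ∀ p : ℕ, p.Prime → p ∣ o → p = 3 ∨ p = 11 ∨ p = 13) : NumOK2 11 N o := by
  intro s p hs hp hso hpo hs5 hp5 hps
  rcases ho s hs hso with rfl | rfl | rfl <;> rcases ho p hp hpo with rfl | rfl | rfl <;>
    first
      | exact absurd rfl hs5
      | exact absurd rfl hp5
      | exact absurd rfl hps
      | (simp only [ord311, ord1311]; norm_num)

theorem num13 {n o : ℕ} (ho : ∀ p : ℕ, p.Prime → p ∣ o → p = 3 ∨ p = 13) : NumOK2 13 n o := by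
  intro s p hs hp hso hpo hs5 hp5 hps
  rcases ho s hs hso with rfl | rfl <;> rcases ho p hp hpo with rfl | rfl <;>
    first
      | exact absurd rfl hs5
      | exact absurd rfl hp5
      | exact absurd rfl hps

/-- the centralizer of the center of a Sylow subgroup is not solvable -/
def CenNS (q : ℕ) (G : Type*) [Group G] : Prop := ∃ (T : Sylow q G) (w : G),
  (∀ t ∈ (T : Subgroup G), (∀ r ∈ (T : Subgroup G), r * t = t * r) → t ∈ zpowers w) ∧
    ¬ Group.IsSolvable ↥(centralizer ({w} : Set G))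

/-- **The facts on the Monster.** -/
structure MF (G : Type*) [Group G] : Prop where
  card : Nat.card G = N
  inn : ∀ β : MulAut G, ∃ g : G, β = MulAut.conj g
  rad : ∀ p : ℕ, p.Prime → p ≠ 2 → ∀ t : G, orderOf t = 2 → H839.Rad.RadFree p ↥(centralizer ({t} : Set G))
  five : CenNS 5 G
  seven : CenNS 7 G
  eleven : ∃ c g : G, orderOf c = 11 ∧ g * c * g⁻¹ = c⁻¹
  thirteen : (∀ S : Sylow 13 G, ∃ a ∈ (S : Subgroup G), ∃ b ∈ (S : Subgroup G), a * b ≠ b * a) → Moved 13 G
  cube : ∃ R Q : Subgroup G, Nat.card R = 13 ^ 3 ∧ IsPGroup 2 Q ∧ (∀ q ∈ Q, ∀ r ∈ R, q * r * q⁻¹ ∈ R) ∧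
    ∃ k ∈ Q, ∃ l ∈ Q, ∃ r ∈ R, k * l * r * (k * l)⁻¹ ≠ l * k * r * (l * k)⁻¹

variable {G : Type u} [Group G]

/-- **The row from the facts.** -/
theorem MF.row (F : MF G) : Row G := by
  intro α h
  have hcard : Nat.card G = N := F.card
  have hfin : Finite G := Nat.finite_of_card_ne_zero (by rw [hcard]; norm_num)
  have hsim := h.sim
  have hna : ¬ ∀ a b : G, a * b = b * a := h.na
  have hcb := h.center_bot
  have hinn : ∀ (q : ℕ), ∀ x : MulAut G, x ∈ zpowers α → (∃ k : ℕ, orderOf x = q ^ k) → ∃ u : G, x = MulAut.conj u :=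
    fun q x _ _ => F.inn x
  -- `|C_G(α)|` is odd
  have hodd : Odd (Nat.card (fixA α)) := by
    obtain ⟨p, hp, hp2, hd⟩ := h.exists_prime_ne Nat.prime_two (by rw [hcard]; norm_num)
    obtain ⟨x, hx, hxo⟩ := exists_prime_order hp hd
    obtain ⟨y, rfl⟩ := F.inn x
    have hinj : Function.Injective (MulAut.conj : G →* MulAut G) := fun a b hab => conj_inj hcb hab
    have hy : orderOf y = p := by rw [← hxo]; exact (orderOf_injective _ hinj y).symm
    exact odd_fix h hx hy (F.rad p hp hp2)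
  have hodd2 : Odd (orderOf α) := by
    obtain ⟨a, ha⟩ := F.inn α
    have haα : a ∈ fixA α := by
      show α a = a
      nth_rw 1 [ha]
      rw [MulAut.conj_apply, mul_inv_cancel_right]
    have h1 : orderOf α ∣ orderOf a := by
      rw [ha]
      exact orderOf_map_dvd MulAut.conj a
    have h2 : orderOf a ∣ Nat.card (fixA α) := by
      have h3 : orderOf (⟨a, haα⟩ : ↥(fixA α)) = orderOf a := Subgroup.orderOf_mk _ _
      rw [← h3]
      exact orderOf_dvd_natCard _
    exact hodd.of_dvd_nat (h1.trans h2)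
  -- the primes
  have hprm : ∀ p : ℕ, p.Prime → p ∣ orderOf α → p = 3 ∨ p = 5 ∨ p = 7 ∨ p = 11 ∨ p = 13 := by
    intro p hp hd
    have h2 : p ^ 2 ∣ N := by
      by_contra hn
      rw [← hcard] at hn
      exact not_dvd_of_moved h hp (fun x _ => F.inn x) (moved_of_not_sq hna hp hn) hd
    rcases primes hp h2 with rfl | h3
    · exact absurd (even_iff_two_dvd.2 hd) (Nat.not_even_iff_odd.2 hodd2)
    · exact h3
  -- 5
  have h5 : ¬ 5 ∣ orderOf α := by
    intro hd
    have : Fact (Nat.Prime 5) := ⟨by norm_num⟩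
    obtain ⟨T, w, hw, hs⟩ := F.five
    exact false_of_center2 h hodd (hcard ▸ num5 hprm) hd (hinn 5) T hw hs
  have hprm7 : ∀ p : ℕ, p.Prime → p ∣ orderOf α → p = 3 ∨ p = 7 ∨ p = 11 ∨ p = 13 := by
    intro p hp hd
    rcases hprm p hp hd with h1 | rfl | h1
    · exact Or.inl h1
    · exact absurd hd h5
    · exact Or.inr h1
  have h7 : ¬ 7 ∣ orderOf α := by
    intro hd
    have : Fact (Nat.Prime 7) := ⟨by norm_num⟩
    obtain ⟨T, w, hw, hs⟩ := F.seven
    exact false_of_center2 h hodd (hcard ▸ num7 hprm7) hd (hinn 7) T hw hs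
  have hprm11 : ∀ p : ℕ, p.Prime → p ∣ orderOf α → p = 3 ∨ p = 11 ∨ p = 13 := by
    intro p hp hd
    rcases hprm7 p hp hd with h1 | rfl | h1
    · exact Or.inl h1
    · exact absurd hd h7
    · exact Or.inr h1
  have h11 : ¬ 11 ∣ orderOf α := by
    intro hd
    have : Fact (Nat.Prime 11) := ⟨by norm_num⟩
    obtain ⟨c, g, hc, hg⟩ := F.eleven
    obtain ⟨T₀⟩ : Nonempty (Sylow 11 G) := inferInstance
    have hT : Nat.card (T₀ : Subgroup G) = 11 ^ 2 := by
      have h1 : Nat.card (T₀ : Subgroup G) ∣ N := hcard ▸ (T₀ : Subgroup G).card_subgroup_dvd_card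
      obtain ⟨n, hn⟩ := IsPGroup.iff_card.1 T₀.isPGroup'
      have h2 : 11 ^ 2 ∣ Nat.card (T₀ : Subgroup G) :=
        T₀.pow_dvd_card_of_pow_dvd_card (by rw [hcard]; norm_num)
      rw [hn] at h1 h2 ⊢
      have h3 : 2 ≤ n := (Nat.pow_dvd_pow_iff_le_right (by norm_num)).1 h2
      have h4 : ¬ 3 ≤ n := by
        intro h5
        have h6 := (pow_dvd_pow 11 h5).trans h1
        norm_num at h6
      congr 1
      omega
    refine false_of_sq h hodd (hcard ▸ num11 hprm11) hd (hinn 11) T₀ hT ?_ hc (by norm_num) hg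
    intro p hp hpd hp11 hpp
    rcases hprm11 p hp hpd with rfl | rfl | rfl
    · norm_num at hpp
    · exact hp11 rfl
    · norm_num at hpp
  have hprm13 : ∀ p : ℕ, p.Prime → p ∣ orderOf α → p = 3 ∨ p = 13 := by
    intro p hp hd
    rcases hprm11 p hp hd with h1 | rfl | h1
    · exact Or.inl h1
    · exact absurd hd h11
    · exact Or.inr h1
  -- 13
  obtain ⟨p, hp, hp3, hpd⟩ := h.exists_prime_ne Nat.prime_three (by rw [hcard]; norm_num)
  have hp13 : p = 13 := (hprm13 p hp hpd).resolve_left hp3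
  subst hp13
  have : Fact (Nat.Prime 13) := ⟨hp⟩
  by_cases hab : ∀ S : Sylow 13 G, ∃ a ∈ (S : Subgroup G), ∃ b ∈ (S : Subgroup G), a * b ≠ b * a
  · exact not_dvd_of_moved h hp (fun x _ => F.inn x) (F.thirteen hab) hpd
  push Not at hab
  obtain ⟨S, hS⟩ := hab
  obtain ⟨x, z, hx, hz, hα, hxs, hzs, hzα⟩ := exists_ppart α 13
  obtain ⟨u, rfl⟩ := F.inn x
  have hu1 : u ≠ 1 := by
    rintro rfl
    rw [map_one, mul_one] at hα
    rw [hα] at hpd
    exact hzs hpd
  obtain ⟨T, hT⟩ := exists_sylow2 h hodd (num13 hprm13) hx hz hα hxs hzs hu1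
  have hupow : ∃ k : ℕ, u ^ 13 ^ k = 1 := by
    obtain ⟨k, hk⟩ := hxs
    refine ⟨k, ?_⟩
    apply conj_inj hcb
    rw [map_pow, ← hk, pow_orderOf_eq_one, map_one]
  have huT : u ∈ (T : Subgroup G) := mem_of_normalizes T hupow (zpowers_inv hT hx)
  -- `T` is abelian
  have hTab : ∀ a ∈ (T : Subgroup G), ∀ b ∈ (T : Subgroup G), a * b = b * a := by
    obtain ⟨g, hg⟩ := MulAction.exists_smul_eq G T S
    have hm : ∀ a ∈ (T : Subgroup G), g * a * g⁻¹ ∈ (S : Subgroup G) := by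
      intro a ha
      rw [← hg]
      exact ⟨a, ha, rfl⟩
    intro a ha b hb
    have h1 := hS _ (hm a ha) _ (hm b hb)
    have h2 : g * (a * b) * g⁻¹ = g * (b * a) * g⁻¹ := by
      calc g * (a * b) * g⁻¹ = g * a * g⁻¹ * (g * b * g⁻¹) := by group
        _ = g * b * g⁻¹ * (g * a * g⁻¹) := h1
        _ = _ := by group
    exact mul_left_cancel (mul_right_cancel h2)
  -- the order of `z`
  have hz3 : ∃ k, orderOf z = 3 ^ k := by
    refine ⟨(orderOf z).primeFactorsList.length, ?_⟩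
    refine Nat.eq_prime_pow_of_unique_prime_dvd (orderOf_pos z).ne' ?_
    intro d hd hdz
    rcases hprm13 d hd (hdz.trans hzα) with h1 | rfl
    · exact h1
    · exact absurd hdz hzs
  obtain ⟨R, Q, hR, hQ, hQR, k, hk, l, hl, r, hr, hne⟩ := F.cube
  -- `R` is conjugate to `T`
  have hRp : IsPGroup 13 R := IsPGroup.of_card hR
  obtain ⟨R', hR'⟩ := hRp.exists_le_sylow
  have hSc : ∀ P : Sylow 13 G, Nat.card (P : Subgroup G) = 13 ^ 3 := by
    intro P
    have h1 : Nat.card (P : Subgroup G) ∣ N := hcard ▸ (P : Subgroup G).card_subgroup_dvd_card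
    obtain ⟨n, hn⟩ := IsPGroup.iff_card.1 P.isPGroup'
    have h2 : 13 ^ 3 ∣ Nat.card (P : Subgroup G) :=
      P.pow_dvd_card_of_pow_dvd_card (by rw [hcard]; norm_num)
    rw [hn] at h1 h2 ⊢
    have h3 : 3 ≤ n := (Nat.pow_dvd_pow_iff_le_right (by norm_num)).1 h2
    have h4 : ¬ 4 ≤ n := by
      intro h5
      have h6 := (pow_dvd_pow 13 h5).trans h1
      norm_num at h6
    congr 1
    omega
  have hRR : R = (R' : Subgroup G) := eq_of_le_of_card_ge hR' (by rw [hSc, hR])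
  obtain ⟨g, hg⟩ := MulAction.exists_smul_eq G R' T
  have hmem : ∀ a, a ∈ R ↔ g * a * g⁻¹ ∈ (T : Subgroup G) := by
    intro a
    rw [← hg, hRR]
    constructor
    · intro ha
      exact ⟨a, ha, rfl⟩
    · rintro ⟨b, hb, e⟩
      have e' : g * b * g⁻¹ = g * a * g⁻¹ := e
      rw [← mul_left_cancel (mul_right_cancel e')]
      exact hb
  refine false_of_cube h hodd (p := 13) (by norm_num) (T : Subgroup G) hT hTab (hSc T) hz hx huT hα hz3
    (Q.map (MulAut.conj g).toMonoidHom) (hQ.map _) ?_ (k := g * k * g⁻¹) (l := g * l * g⁻¹) (r := g * r * g⁻¹)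
    ⟨k, hk, rfl⟩ ⟨l, hl, rfl⟩ ((hmem r).1 hr) ?_
  · rintro _ ⟨q, hq, rfl⟩ t ht
    have h1 : g⁻¹ * t * g ∈ R := by
      rw [hmem]
      have e : g * (g⁻¹ * t * g) * g⁻¹ = t := by group
      rwa [e]
    have h2 := (hmem _).1 (hQR q hq _ h1)
    show g * q * g⁻¹ * t * (g * q * g⁻¹)⁻¹ ∈ (T : Subgroup G)
    have e : g * q * g⁻¹ * t * (g * q * g⁻¹)⁻¹ = g * (q * (g⁻¹ * t * g) * q⁻¹) * g⁻¹ := by group
    rwa [e]
  · intro e
    apply hne
    have e' : g * (k * l * r * (k * l)⁻¹) * g⁻¹ = g * (l * k * r * (l * k)⁻¹) * g⁻¹ := by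
      calc g * (k * l * r * (k * l)⁻¹) * g⁻¹
          = g * k * g⁻¹ * (g * l * g⁻¹) * (g * r * g⁻¹) * (g * k * g⁻¹ * (g * l * g⁻¹))⁻¹ := by group
        _ = g * l * g⁻¹ * (g * k * g⁻¹) * (g * r * g⁻¹) * (g * l * g⁻¹ * (g * k * g⁻¹))⁻¹ := e
        _ = _ := by group
    exact mul_left_cancel (mul_right_cancel e')

end Cfsg.Agent.H979.Ccp.MonRow
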